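import Cfsg.Agent.H864.TrAct
import Cfsg.Agent.H330.GowUniq
import Cfsg.Agent.H520.CcpCfg

/-!
# Elliptic automorphisms fix no residue (helper885, S4114)

* `Act Δ G α` : the action of an automorphism `α` of `G` on the building;
* `Act.ell` : if `α` normalises no nontrivial `p`-subgroup, no proper residue is fixed;
* `Act.op` : the operator on the Steinberg module.
-/

set_option autoImplicit false
set_option linter.unusedSectionVars false

open scoped Pointwise

namespace Cfsg.Agent.H885.Ell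

open Cfsg Cfsg.Agent.Tits.Core Cfsg.Agent.Tits.Core.Bldg Cfsg.Agent.Tits.Exchange Cfsg.Agent.FixBN
  Cfsg.Agent.Tits Cfsg.Agent.H167.SteinbergMod

variable {I : Type*} {M : CoxeterMatrix I} {W : Type*} [Group W] {cs : CoxeterSystem M W} {C : Type*}

/-- The action of an automorphism of `G` on the building of `G`. -/
structure Act (Δ : Bldg cs C) (G : Type*) [Group G] [MulAction G C] (α : MulAut G) where
  θ : C ≃ C
  φ : W ≃* W
  σ : I ≃ I
  smul : ∀ (g : G) x, θ (g • x) = α g • θ x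
  simple : ∀ i, φ (cs.simple i) = cs.simple (σ i)
  dist : ∀ x y, Δ.δ (θ x) (θ y) = φ (Δ.δ x y)

/-- `w_K = w_0` only for the full type. -/
theorem univ_of_wJ [F : OppRes.Cox cs] {K : Set I} (h : wJ cs K = w0 cs) : K = Set.univ := by
  rw [Set.eq_univ_iff_forall]
  intro i
  have h0 : w0 cs ∈ WJ cs K := by rw [← h]; exact F.wJ_mem K
  refine F.descent_mem K _ h0 i ?_
  have h1 := F.len_w0_mul (cs.simple i)
  rw [cs.length_simple] at h1
  omega

variable {Δ : Bldg cs C} {G : Type*} [Group G] [MulAction G C] {α : MulAut G}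

namespace Act

/-- The inverse. -/
def symm (t : Act Δ G α) : Act Δ G α⁻¹ where
  θ := t.θ.symm
  φ := t.φ.symm
  σ := t.σ.symm
  smul g x := by
    rw [Equiv.symm_apply_eq, t.smul, Equiv.apply_symm_apply, MulAut.apply_inv_self]
  simple i := by
    rw [MulEquiv.symm_apply_eq, t.simple, Equiv.apply_symm_apply]
  dist x y := by
    rw [MulEquiv.eq_symm_apply, ← t.dist, Equiv.apply_symm_apply, Equiv.apply_symm_apply]

theorem φ_mem (t : Act Δ G α) {J : Set I} {w : W} (hw : w ∈ WJ cs J) : t.φ w ∈ WJ cs (t.σ '' J) := by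
  unfold WJ at hw ⊢
  induction hw using Subgroup.closure_induction with
  | mem w hw =>
    obtain ⟨i, hi, rfl⟩ := hw
    rw [t.simple]
    exact Subgroup.subset_closure ⟨_, ⟨i, hi, rfl⟩, rfl⟩
  | one => rw [map_one]; exact one_mem _
  | mul a b _ _ ha hb => rw [map_mul]; exact mul_mem ha hb
  | inv a _ ha => rw [map_inv]; exact inv_mem ha

theorem δ_mem (t : Act Δ G α) {J : Set I} {x y : C} (h : Δ.δ x y ∈ WJ cs J) :
    Δ.δ (t.θ x) (t.θ y) ∈ WJ cs (t.σ '' J) := by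
  rw [t.dist]
  exact t.φ_mem h

theorem δ_mem_iff (t : Act Δ G α) {J : Set I} {x y : C} :
    Δ.δ (t.θ x) (t.θ y) ∈ WJ cs (t.σ '' J) ↔ Δ.δ x y ∈ WJ cs J := by
  refine ⟨fun h => ?_, t.δ_mem⟩
  have h1 := t.symm.δ_mem h
  change Δ.δ (t.θ.symm (t.θ x)) (t.θ.symm (t.θ y)) ∈ WJ cs (t.σ.symm '' (t.σ '' J)) at h1
  rwa [Equiv.symm_apply_apply, Equiv.symm_apply_apply, Equiv.symm_image_image] at h1

theorem mem_U {p : ℕ} (t : Act Δ G α) (S : Sys Δ G p) {g : G} {x : C} (hg : g ∈ S.U x) : α g ∈ S.U (t.θ x) := by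
  have h1 : IsPGroup p ((S.U x).map (α : G ≃* G).toMonoidHom) := (S.isP x).map _
  refine S.max (t.θ x) _ h1 ?_ ⟨g, hg, rfl⟩
  rintro _ ⟨v, hv, rfl⟩
  change α v • t.θ x = t.θ x
  rw [← t.smul, S.fix x v hv]

/-- **An automorphism normalising no nontrivial `p`-subgroup fixes no proper residue.** -/
theorem ell [Fintype I] [Finite W] [Finite C] [Finite G] {p : ℕ} [Fact p.Prime] (t : Act Δ G α) (S : Sys Δ G p) (hth : Δ.Thick)
    (ht : ∀ x y : C, ∃ g : G, g • x = y) (hE : H520.EL p α) {K : Set I} (hK : t.σ '' K = K) (hK1 : K ≠ Set.univ)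
    (x : C) : Δ.δ x (t.θ x) ∉ WJ cs K := by
  have F : OppRes.Cox cs := inferInstance
  intro hx
  have hQ : ∀ y ∈ Δ.Res K x, t.θ y ∈ Δ.Res K x := by
    intro y hy
    have h1 := t.δ_mem hy
    rw [hK] at h1
    exact Δ.mem_Res_trans hx h1
  -- the residue is invariant
  have hQ' : ∀ y ∈ Δ.Res K x, ∃ z ∈ Δ.Res K x, t.θ z = y := by
    have hfin : (Δ.Res K x).Finite := Set.toFinite _
    have h1 : t.θ '' Δ.Res K x = Δ.Res K x := by
      refine Set.eq_of_subset_of_ncard_le ?_ ?_ hfin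
      · rintro _ ⟨y, hy, rfl⟩
        exact hQ y hy
      · rw [Set.ncard_image_of_injective _ t.θ.injective]
    intro y hy
    rw [← h1] at hy
    obtain ⟨z, hz, rfl⟩ := hy
    exact ⟨z, hz, rfl⟩
  have hinv : ∀ m ∈ S.UR (Δ.Res K x), α m ∈ S.UR (Δ.Res K x) := by
    intro m hm y hy
    obtain ⟨z, hz, rfl⟩ := hQ' y hy
    exact t.mem_U S (hm z hz)
  have hbot := hE (S.UR (Δ.Res K x)) (S.UR_isP ⟨x, Δ.self_mem_Res _ _⟩) hinv
  -- the unipotent radical is not trivial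
  obtain ⟨y, hy⟩ := Δ.exists_δ x (wJ cs K)
  have hopp : ¬ Δ.Opp x y := by
    intro h
    apply hK1
    apply univ_of_wJ (cs := cs)
    rw [← hy]
    exact h
  have := Fintype.ofFinite C
  obtain ⟨z, hz, hz', hz1⟩ := H330.GowUniq.exists_inf (S := S) hth ht hopp
  have h2 := S.mem_UR_of_fix hth hz hy (S.fix y z hz')
  rw [hbot, Subgroup.mem_bot] at h2
  exact hz1 h2

/-! ### The operator on the Steinberg module -/

variable [Fintype C]

theorem comp_mem (t : Act Δ G α) {f : C → ℂ} (hf : f ∈ Harm Δ) : (fun x => f (t.θ.symm x)) ∈ Harm Δ := by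
  classical
  rw [mem_Harm] at hf ⊢
  intro i x
  refine Eq.trans ?_ (hf (t.σ.symm i) (t.θ.symm x))
  refine Fintype.sum_equiv t.θ.symm _ _ fun y => ?_
  have h1 : y ∈ Δ.Pan i x ↔ t.θ.symm y ∈ Δ.Pan (t.σ.symm i) (t.θ.symm x) := by
    rw [Δ.Pan_eq_Res, Δ.Pan_eq_Res, Δ.mem_Res, Δ.mem_Res]
    have h2 := t.symm.δ_mem_iff (J := {i}) (x := x) (y := y)
    rw [Set.image_singleton] at h2
    exact h2.symm
  by_cases h : y ∈ Δ.Pan i x
  · rw [if_pos h, if_pos (h1.1 h)]
  · rw [if_neg h, if_neg (fun h2 => h (h1.2 h2))]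

/-- The operator on the Steinberg module. -/
noncomputable def op (t : Act Δ G α) : Harm Δ ≃ₗ[ℂ] Harm Δ where
  toFun f := ⟨fun x => (f : C → ℂ) (t.θ.symm x), t.comp_mem f.2⟩
  map_add' _ _ := rfl
  map_smul' _ _ := rfl
  invFun f := ⟨fun x => (f : C → ℂ) (t.θ x), t.symm.comp_mem f.2⟩
  left_inv f := by
    apply Subtype.ext
    funext x
    change (f : C → ℂ) (t.θ.symm (t.θ x)) = _
    rw [Equiv.symm_apply_apply]
  right_inv f := by
    apply Subtype.ext
    funext x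
    change (f : C → ℂ) (t.θ (t.θ.symm x)) = _
    rw [Equiv.apply_symm_apply]

theorem op_apply (t : Act Δ G α) (f : Harm Δ) (x : C) : ((t.op f : Harm Δ) : C → ℂ) x = (f : C → ℂ) (t.θ.symm x) := rfl

theorem op_symm_apply (t : Act Δ G α) (f : Harm Δ) (x : C) :
    ((t.op.symm f : Harm Δ) : C → ℂ) x = (f : C → ℂ) (t.θ x) := rfl

theorem op_symm (t : Act Δ G α) : t.symm.op = t.op.symm := rfl

/-- The operator is an intertwiner. -/
theorem op_rep (t : Act Δ G α) (hiso : ∀ (g : G) (x y : C), Δ.δ (g • x) (g • y) = Δ.δ x y) (g : G) (f : Harm Δ) :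
    t.op (stRep Δ hiso g f) = stRep Δ hiso (α g) (t.op f) := by
  apply Subtype.ext
  funext x
  change (f : C → ℂ) (g⁻¹ • t.θ.symm x) = (f : C → ℂ) (t.θ.symm ((α g)⁻¹ • x))
  have h := t.symm.smul (α g)⁻¹ x
  change t.θ.symm ((α g)⁻¹ • x) = α⁻¹ (α g)⁻¹ • t.θ.symm x at h
  rw [h, map_inv, MulAut.inv_apply_self]

theorem op_pow_apply (t : Act Δ G α) (n : ℕ) (f : Harm Δ) (x : C) :
    (((t.op ^ n : Harm Δ ≃ₗ[ℂ] Harm Δ) f : Harm Δ) : C → ℂ) x = (f : C → ℂ) (t.θ.symm^[n] x) := by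
  induction n generalizing x with
  | zero => rfl
  | succ n ih =>
    rw [pow_succ']
    change (((t.op ^ n : Harm Δ ≃ₗ[ℂ] Harm Δ) f : Harm Δ) : C → ℂ) (t.θ.symm x) = _
    rw [ih, Function.iterate_succ_apply]

theorem op_pow (t : Act Δ G α) {n : ℕ} (h : ∀ x, t.θ^[n] x = x) : t.op ^ n = 1 := by
  apply LinearEquiv.ext
  intro f
  apply Subtype.ext
  funext x
  rw [op_pow_apply]
  change _ = (f : C → ℂ) x
  have h1 : ∀ n, ∀ x, t.θ.symm^[n] (t.θ^[n] x) = x := by
    intro n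
    exact Function.LeftInverse.iterate t.θ.symm_apply_apply n
  have h2 := h1 n x
  rw [h x] at h2
  rw [h2]

end Act

end Cfsg.Agent.H885.Ell
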